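import Groth.Agent.Ega4fib.H141.TopConn
import Groth.Agent.Flat2D.SecCompDvr
import Groth.Agent.Ega43.UnivOpenAt
import Groth.Agent.Ega43.UnivOpenFlatGeom
import Groth.Agent.Ega43.GeomAt

/-!
# Section components and generizations: universally open morphisms with geometrically reduced fibre
-/

set_option autoImplicit false
universe u

open AlgebraicGeometry CategoryTheory Limits

namespace Groth.Agent.Ega4fib.H141.SecDvr

open Groth.Agent.Ega43.GeomAt Groth.Agent.Ega43.UnivOpenAt

/-- Reducedness, as a property of rings. -/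
abbrev PRed : ∀ (R : Type u) [CommRing R], Prop := fun R _ => _root_.IsReduced R

theorem isoClosed_pRed : IsoClosed PRed.{u} := fun _ _ _ _ e h =>
  have := h
  isReduced_of_injective e.symm e.symm.injective

/-- `GeomAt` is stable under base change. -/
theorem geomAt_of_isPullback {P : ∀ (R : Type u) [CommRing R], Prop} {X Y X' Y' : Scheme.{u}}
    {f : X ⟶ Y} {p : X' ⟶ X} {f' : X' ⟶ Y'} {g : Y' ⟶ Y} (sq : IsPullback p f' f g) (x' : X')
    (h : GeomAt P f (p x')) : GeomAt P f' x' := by
  intro K _ Z a b j hpb z hz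
  refine h K Z (a ≫ p) b (j ≫ g) (hpb.paste_horiz sq) z ?_
  rw [← hz]
  rfl

/-- The fibre through a point where `f` is geometrically reduced is reduced there. -/
theorem isReduced_stalk_fiber {X Y : Scheme.{u}} (f : X ⟶ Y) (y : Y) (z : f.fiber y)
    (h : GeomAt PRed f (f.fiberι y z)) : _root_.IsReduced ((f.fiber y).presheaf.stalk z) := by
  exact h (Y.residueField y) _ (f.fiberι y) (f.fiberToSpecResidueField y) (Y.fromSpecResidueField y)
    (IsPullback.of_hasPullback _ _) z rfl

/-- Universal openness at a point for the restriction to an open subscheme of the source. -/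
theorem isUnivOpenAt_openImmersion_comp {U X Y : Scheme.{u}} (j : U ⟶ X) [IsOpenImmersion j] (f : X ⟶ Y)
    (u : U) (h : EGA43.IsUnivOpenAt f (j u)) : EGA43.IsUnivOpenAt (j ≫ f) u := by
  intro Y' t x' hx'
  let k : pullback (j ≫ f) t ⟶ pullback f t :=
    pullback.lift (pullback.fst (j ≫ f) t ≫ j) (pullback.snd _ _) (by
      rw [Category.assoc]; exact pullback.condition)
  have hk1 : k ≫ pullback.fst f t = pullback.fst (j ≫ f) t ≫ j := pullback.lift_fst _ _ _
  have hk2 : k ≫ pullback.snd f t = pullback.snd (j ≫ f) t := pullback.lift_snd _ _ _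
  have hk : IsPullback (pullback.fst (j ≫ f) t) k j (pullback.fst f t) := by
    refine IsPullback.of_bot ?_ hk1.symm (IsPullback.of_hasPullback f t)
    rw [hk2]
    exact IsPullback.of_hasPullback (j ≫ f) t
  have : IsOpenImmersion k := MorphismProperty.of_isPullback (P := @IsOpenImmersion) hk inferInstance
  have h1 := h Y' t (k x') (by
    rw [← Scheme.Hom.comp_apply, hk1, Scheme.Hom.comp_apply]
    exact congrArg j hx')
  rw [← hk2]
  intro V hV
  rw [Scheme.Hom.comp_base, TopCat.coe_comp]
  exact isOpenAt_comp ((isOpenMap_iff_forall_isOpenAt _).mp k.isOpenEmbedding.isOpenMap x') h1 V hV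

/-- Universal openness at a point for a factorization through an open subscheme of the target. -/
theorem isUnivOpenAt_of_comp_mono {X V Y : Scheme.{u}} (f : X ⟶ V) (m : V ⟶ Y) [Mono m]
    (x : X) (h : EGA43.IsUnivOpenAt (f ≫ m) x) : EGA43.IsUnivOpenAt f x := by
  have sq : IsPullback (𝟙 X) f (f ≫ m) m := by
    have h1 : IsPullback (𝟙 X) f f (𝟙 V) := IsPullback.of_horiz_isIso ⟨by simp⟩
    have h2 := (isPullback_comp_mono_iff m).2 h1
    rwa [Category.id_comp] at h2
  exact isUnivOpenAt_of_isPullback h sq x rfl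

/-- Sections of the source restricted to an open subscheme: section components map to section components. -/
theorem map_mem_sectionComponents {U X Y V : Scheme.{u}} (j : U ⟶ X) (m : V ⟶ Y) (f : X ⟶ Y) (f' : U ⟶ V)
    (hf : f' ≫ m = j ≫ f) (s : Y ⟶ X) (s' : V ⟶ U) (hs : s' ≫ j = m ≫ s) (hs' : s' ≫ f' = 𝟙 V)
    {u : U} (hu : u ∈ MoreMor.sectionComponents f' s') : j u ∈ MoreMor.sectionComponents f s := by
  change u ∈ connectedComponentIn (f' ⁻¹' {f' u}) (s' (f' u)) at hu
  change j u ∈ connectedComponentIn (f ⁻¹' {f (j u)}) (s (f (j u)))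
  have h1 : ∀ w : U, f (j w) = m (f' w) := fun w ↦ by
    calc f (j w) = (j ≫ f) w := rfl
      _ = (f' ≫ m) w := by rw [hf]
      _ = _ := rfl
  have h2 : s (f (j u)) = j (s' (f' u)) := by
    rw [h1]
    calc s (m (f' u)) = (m ≫ s) (f' u) := rfl
      _ = (s' ≫ j) (f' u) := by rw [hs]
      _ = _ := rfl
  have h3 : f' (s' (f' u)) = f' u := by
    calc f' (s' (f' u)) = (s' ≫ f') (f' u) := rfl
      _ = f' u := by rw [hs']; rfl
  have h4 : _root_.IsPreconnected (j '' connectedComponentIn (f' ⁻¹' {f' u}) (s' (f' u))) :=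
    isPreconnected_connectedComponentIn.image j j.continuous.continuousOn
  refine h4.subset_connectedComponentIn ?_ ?_ ⟨u, hu, rfl⟩
  · rw [h2]
    exact ⟨_, mem_connectedComponentIn h3, rfl⟩
  · rintro _ ⟨w, hw, rfl⟩
    have hw' : f' w = f' u := (connectedComponentIn_subset (f' ⁻¹' {f' u}) _) hw
    change f (j w) = f (j u)
    rw [h1, h1, hw']

/-- The local ring of a discrete valuation ring at a non-closed point is a field. -/
theorem isField_stalk_of_ne {R : Type u} [CommRing R] [IsDomain R] [IsDiscreteValuationRing R]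
    (y : Spec (CommRingCat.of R)) (hy : y ≠ IsLocalRing.closedPoint R) :
    IsField ((Spec (CommRingCat.of R)).presheaf.stalk y) := by
  have h1 : y.asIdeal = ⊥ := by
    by_contra h
    apply hy
    apply PrimeSpectrum.ext
    exact IsLocalRing.eq_maximalIdeal (Ring.DimensionLEOne.maximalOfPrime h y.2)
  have h2 : y = genericPoint (Spec (CommRingCat.of R)) := by
    rw [genericPoint_eq_bot_of_affine]
    exact PrimeSpectrum.ext h1
  rw [h2]
  exact Field.toIsField (Spec (CommRingCat.of R)).functionField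

theorem core_dvr {R : Type u} [CommRing R] [IsDomain R] [IsDiscreteValuationRing R] {X : Scheme.{u}}
    (f : X ⟶ Spec (CommRingCat.of R)) [LocallyOfFiniteType f] [QuasiCompact f]
    (s σ : Spec (CommRingCat.of R) ⟶ X) (hs : s ≫ f = 𝟙 _) (hσ : σ ≫ f = 𝟙 _)
    (hopen : ∀ x : X, f x = IsLocalRing.closedPoint R → x ∈ MoreMor.sectionComponents f s →
      EGA43.IsUnivOpenAt f x)
    (hred : ∀ x : X, f x = IsLocalRing.closedPoint R → x ∈ MoreMor.sectionComponents f s →
      GeomAt PRed f x)
    (h : σ (IsLocalRing.closedPoint R) ∈ MoreMor.sectionComponents f s) :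
    σ (⟨⊥, Ideal.isPrime_bot⟩ : PrimeSpectrum R) ∈ MoreMor.sectionComponents f s := by
  have hsf : ∀ y, f (s y) = y := fun y ↦ by
    calc f (s y) = (s ≫ f) y := rfl
      _ = y := by rw [hs]; rfl
  have hσf : ∀ y, f (σ y) = y := fun y ↦ by
    calc f (σ y) = (σ ≫ f) y := rfl
      _ = y := by rw [hσ]; rfl
  let c : Spec (CommRingCat.of R) := IsLocalRing.closedPoint R
  let η : Spec (CommRingCat.of R) := (⟨⊥, Ideal.isPrime_bot⟩ : PrimeSpectrum R)
  let C : Set X := connectedComponentIn (f ⁻¹' {c}) (s c)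
  have hCmem : ∀ x : X, f x = c → (x ∈ MoreMor.sectionComponents f s ↔ x ∈ C) := by
    intro x hx
    change x ∈ connectedComponentIn (f ⁻¹' {f x}) (s (f x)) ↔ _
    rw [hx]
  have hCf : ∀ x ∈ C, f x = c := fun x hx ↦ (connectedComponentIn_subset (f ⁻¹' {c}) (s c)) hx
  -- the closed fibre
  have hFN : IsNoetherian (f.fiber c) := by
    have h0 : LocallyOfFiniteType (f.fiberToSpecResidueField c) :=
      inferInstanceAs (LocallyOfFiniteType (pullback.snd f ((Spec (CommRingCat.of R)).fromSpecResidueField c)))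
    have h1 : IsLocallyNoetherian (f.fiber c) :=
      LocallyOfFiniteType.isLocallyNoetherian (f.fiberToSpecResidueField c)
    exact { __ := h1 }
  obtain ⟨x0, hx0⟩ : ∃ x0 : f.fiber c, f.fiberι c x0 = s c := by
    have : s c ∈ Set.range (f.fiberι c) := by rw [f.range_fiberι c]; exact hsf c
    exact this
  have hCim : C = f.fiberι c '' connectedComponent x0 := by
    have h1 := TopConn.connectedComponentIn_eq_image (f.fiberι c).isEmbedding (f.range_fiberι c) x0
    rw [hx0] at h1
    exact h1
  have hCo : IsOpen (connectedComponent x0) := TopConn.isOpen_connectedComponent x0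
  have hce : Topology.IsClosedEmbedding (f.fiberι c) := by
    refine ⟨(f.fiberι c).isEmbedding, ?_⟩
    rw [f.range_fiberι c]
    exact (IsLocalRing.isClosed_singleton_closedPoint R).preimage f.continuous
  let D : Set X := f.fiberι c '' (connectedComponent x0)ᶜ
  have hD : IsClosed D := hce.isClosedMap _ hCo.isClosed_compl
  let W : X.Opens := ⟨Dᶜ, hD.isOpen_compl⟩
  have hW : ∀ x : X, x ∈ W ↔ (f x = c → x ∈ C) := by
    intro x
    constructor
    · intro hx hfx
      obtain ⟨z, rfl⟩ : x ∈ Set.range (f.fiberι c) := by rw [f.range_fiberι c]; exact hfx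
      rw [hCim]
      refine ⟨z, ?_, rfl⟩
      by_contra hz
      exact hx ⟨z, hz, rfl⟩
    · rintro hx ⟨z, hz, rfl⟩
      have h1 : f (f.fiberι c z) = c := by
        have : f.fiberι c z ∈ Set.range (f.fiberι c) := ⟨z, rfl⟩
        rw [f.range_fiberι c] at this
        exact this
      have h2 := hx h1
      rw [hCim] at h2
      obtain ⟨z', hz', he⟩ := h2
      have h3 : z' = z := (f.fiberι c).isEmbedding.injective he
      exact hz (h3 ▸ hz')
  let fW : (W : Scheme.{u}) ⟶ Spec (CommRingCat.of R) := W.ι ≫ f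
  have hX : IsLocallyNoetherian X := LocallyOfFiniteType.isLocallyNoetherian f
  have hXc : CompactSpace X := QuasiCompact.compactSpace_of_compactSpace f
  have hXN : IsNoetherian X := { __ := hX }
  have hWN : TopologicalSpace.NoetherianSpace (W : Scheme.{u}) :=
    (W.ι.isEmbedding.isInducing).noetherianSpace
  have hfWq : QuasiCompact fW := inferInstance
  have hgood : ∀ w : W, fW w = c → EGA43.IsUnivOpenAt fW w ∧ GeomAt PRed fW w := by
    intro w hw
    have hw' : f (W.ι w) = c := hw
    have h1 : W.ι w ∈ C := (hW _).mp w.2 hw'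
    have h2 := (hCmem _ hw').mpr h1
    exact ⟨isUnivOpenAt_openImmersion_comp W.ι f w (hopen _ hw' h2),
      (geomAt_comp_openImmersion isoClosed_pRed W.ι f w).mpr (hred _ hw' h2)⟩
  have hflat : Flat fW := by
    refine Flat.of_stalkMap fW fun w => ?_
    by_cases hw : fW w = c
    · refine Groth.Agent.Ega43.UnivOpenFlatGeom.flat_stalkMap fW w (fun z _ _ => ?_) ?_ inferInstance
      · have h1 : fW (fW.fiberι (fW w) z) = fW w := by
          have : fW.fiberι (fW w) z ∈ Set.range (fW.fiberι (fW w)) := ⟨z, rfl⟩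
          rw [fW.range_fiberι (fW w)] at this
          exact this
        exact (hgood _ (h1.trans hw)).1
      · exact (geomAt_fiber_iff isoClosed_pRed fW w).mpr (hgood w hw).2
    · have hF := isField_stalk_of_ne (fW w) hw
      let _ := hF.toField
      algebraize [(fW.stalkMap w).hom]
      change Module.Flat _ _
      infer_instance
  have hredW : IsReduced (fW.fiber c) := by
    have : ∀ z : fW.fiber c, _root_.IsReduced ((fW.fiber c).presheaf.stalk z) := by
      intro z
      have h1 : fW (fW.fiberι c z) = c := by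
        have : fW.fiberι c z ∈ Set.range (fW.fiberι c) := ⟨z, rfl⟩
        rw [fW.range_fiberι c] at this
        exact this
      exact isReduced_stalk_fiber fW c z (hgood _ h1).2
    exact isReduced_of_isReduced_stalk _
  have hσc : σ c ∈ C := (hCmem _ (hσf c)).mp h
  have hsW : Set.range s ⊆ Set.range W.ι := by
    rintro _ ⟨y, rfl⟩
    rw [Scheme.Opens.range_ι]
    refine (hW _).mpr fun hy => ?_
    rw [hsf] at hy
    rw [hy]
    exact mem_connectedComponentIn (hsf c)
  have hσW : Set.range σ ⊆ Set.range W.ι := by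
    rintro _ ⟨y, rfl⟩
    rw [Scheme.Opens.range_ι]
    refine (hW _).mpr fun hy => ?_
    rw [hσf] at hy
    rw [hy]
    exact hσc
  let sW : Spec (CommRingCat.of R) ⟶ W := IsOpenImmersion.lift W.ι s hsW
  let σW : Spec (CommRingCat.of R) ⟶ W := IsOpenImmersion.lift W.ι σ hσW
  have hsW1 : sW ≫ W.ι = s := IsOpenImmersion.lift_fac _ _ _
  have hσW1 : σW ≫ W.ι = σ := IsOpenImmersion.lift_fac _ _ _
  have hsW2 : sW ≫ fW = 𝟙 _ := by rw [← Category.assoc, hsW1, hs]
  have hσW2 : σW ≫ fW = 𝟙 _ := by rw [← Category.assoc, hσW1, hσ]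
  have hsW3 : ∀ y, W.ι (sW y) = s y := fun y ↦ by
    calc W.ι (sW y) = (sW ≫ W.ι) y := rfl
      _ = _ := by rw [hsW1]
  have hσW3 : ∀ y, W.ι (σW y) = σ y := fun y ↦ by
    calc W.ι (σW y) = (σW ≫ W.ι) y := rfl
      _ = _ := by rw [hσW1]
  have hmem : σW c ∈ MoreMor.sectionComponents fW sW := by
    have h1 : fW (σW c) = c := by
      change f (W.ι (σW c)) = c
      rw [hσW3, hσf]
    change σW c ∈ connectedComponentIn (fW ⁻¹' {fW (σW c)}) (sW (fW (σW c)))
    rw [h1]
    have hCW : C ⊆ Set.range W.ι := by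
      intro x hx
      rw [Scheme.Opens.range_ι]
      exact (hW x).mpr fun _ => hx
    have h2 : _root_.IsPreconnected (W.ι ⁻¹' C) := by
      rw [← W.ι.isEmbedding.isInducing.isPreconnected_image, Set.image_preimage_eq_of_subset hCW]
      exact isPreconnected_connectedComponentIn
    refine h2.subset_connectedComponentIn ?_ ?_ ?_
    · change W.ι (sW c) ∈ C
      rw [hsW3]
      exact mem_connectedComponentIn (hsf c)
    · intro w hw
      exact hCf _ hw
    · change W.ι (σW c) ∈ C
      rw [hσW3]
      exact hσc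
  have h5 := Groth.Agent.Flat2D.SecCompDvr.core_dvr fW hredW sW σW hsW2 hσW2 hmem
  have h6 := map_mem_sectionComponents W.ι (𝟙 _) f fW (by simp [fW]) s sW (by simp [hsW1]) hsW2 h5
  have h7 : W.ι (σW η) ∈ MoreMor.sectionComponents f s := h6
  rw [hσW3] at h7
  exact h7

end Groth.Agent.Ega4fib.H141.SecDvr
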